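import Cfsg.Agent.Lib.Helper49.RUW.Defs

set_option autoImplicit false

/-!
# [CENTER] for project RUW (S3174, S3175)

`|Z(W)| = 8`, from the packages TOWER, CHAIN, NORMCENT, ZFACTS, CENK, COMPL (hypotheses).
-/

namespace Cfsg.Agent.Lib.Helper85.RUW

open Cfsg.Agent.Lib.Helper49.RUW

open scoped commutatorElement

universe u

/-- [CENTER] -/
theorem pkgCenter (hTower : PkgTower.{u}) (hChain : PkgChain.{u}) (hNormCent : PkgNormCent.{u})
    (hZFacts : PkgZFacts.{u}) (hCenK : PkgCenK.{u}) (hCompl : PkgCompl.{u}) : PkgCenter.{u} := by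
  intro T _ _ hT W hW fA fB hd
  by_contra hne
  have zf := hZFacts hT W hW fA fB
  haveI := fA.Wn
  -- `N`, the centre of `W` as a subgroup of `T`
  have hNn : ((Subgroup.center ↥W).map W.subtype).Normal :=
    ConjAct.normal_of_characteristic_of_normal
  have hNcard : Nat.card ↥((Subgroup.center ↥W).map W.subtype)
      = Nat.card ↥(Subgroup.center ↥W) := Subgroup.card_subtype W _
  have hNmem : ∀ n ∈ (Subgroup.center ↥W).map W.subtype, n ∈ W ∧ ∀ w ∈ W, w * n = n * w := by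
    intro n hn
    obtain ⟨c, hc, rfl⟩ := Subgroup.mem_map.mp hn
    refine ⟨c.2, fun w hw => ?_⟩
    have h := Subgroup.mem_center_iff.mp hc ⟨w, hw⟩
    have h' : w * (c : T) = (c : T) * w := congrArg Subtype.val h
    exact h'
  have hZ3N : Subgroup.upperCentralSeries T 3 ≤ (Subgroup.center ↥W).map W.subtype := by
    intro z hz
    refine Subgroup.mem_map.mpr ⟨⟨z, zf.Z3W hz⟩, ?_, rfl⟩
    rw [Subgroup.mem_center_iff]
    intro w
    apply Subtype.ext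
    exact zf.cenW w w.2 z hz
  have hZ3neN : Subgroup.upperCentralSeries T 3 ≠ (Subgroup.center ↥W).map W.subtype := by
    intro h
    apply hne
    rw [← hNcard, ← h]
    exact fA.c3
  obtain ⟨y, hyN, hyZ, hycg⟩ :=
    hNormCent hT _ (Subgroup.upperCentralSeries T 3) hNn zf.Z3n hZ3N hZ3neN
  obtain ⟨hyW, hycen⟩ := hNmem y hyN
  -- the tower
  obtain ⟨X₁, c, x, t₀, ser, hAW, hAsq, -⟩ := hTower hT fA.c1 fA.c2 fA.c3
  rw [← hW] at ser hAW hAsq
  have hexp2 : ∀ z ∈ Subgroup.upperCentralSeries T 2, z * z = 1 :=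
    fun z hz => zf.exp z (zf.Z23 hz)
  have hxx : x * x ∈ W := hAsq hexp2 x ser.g2
  have hcx : c * x * c⁻¹ * x⁻¹ ∈ W := hAW c (ser.X12 ser.g1) x ser.g2
  -- the chain
  obtain ⟨P₁, P₂, P₃, ch⟩ :=
    hChain W X₁ _ (Subgroup.upperCentralSeries T 3) c x t₀ ser zf.Z3n zf.Z3W zf.sqW zf.commW
  have hy1 : y ∈ P₁ := (ch.m1 y).mpr ⟨hyW, hycg c⟩
  have hy2 : y ∈ P₂ := (ch.m2 y).mpr ⟨hy1, hycg x⟩
  have hy3 : y ∈ P₃ := (ch.m3 y).mpr ⟨hy2, hycg t₀⟩
  have hP3 : P₃ ≤ Subgroup.upperCentralSeries T 4 := by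
    intro p hp
    have h1 : p⁻¹ ∈ Subgroup.upperCentralSeries T (3 + 1) := by
      rw [Subgroup.mem_upperCentralSeries_succ_iff]
      intro t
      have h := ch.fixT p hp t
      unfold cg at h
      rw [commutatorElement_def, inv_inv]
      rw [← mul_assoc, ← mul_assoc] at h
      exact h
    have h2 := inv_mem h1
    rw [inv_inv] at h2
    exact h2
  have c3le : Nat.card ↥P₃ ≤ 16 := by
    rw [← fA.c4]
    exact Subgroup.card_le_of_le hP3
  have e1 : 16384 ≤ Nat.card ↥P₁ ^ 2 := by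
    have h := ch.c1
    rw [fA.cardW, fA.c3] at h
    calc 16384 = 2 ^ 11 * 8 := by norm_num
      _ ≤ _ := h
  have e2 : Nat.card ↥P₁ * 8 ≤ Nat.card ↥P₂ ^ 2 := by
    have h := ch.c2
    rw [fA.c3] at h
    exact h
  have e3 : Nat.card ↥P₂ * 8 ≤ Nat.card ↥P₃ ^ 2 := by
    have h := ch.c3
    rw [fA.c3] at h
    exact h
  have hd2 : Nat.card ↥P₃ ^ 2 ≤ 256 := by
    calc Nat.card ↥P₃ ^ 2 ≤ 16 ^ 2 := Nat.pow_le_pow_left c3le 2
      _ = 256 := by norm_num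
  have hP2 : Nat.card ↥P₂ ≤ 32 := by omega
  have hb2 : Nat.card ↥P₂ ^ 2 ≤ 1024 := by
    calc Nat.card ↥P₂ ^ 2 ≤ 32 ^ 2 := Nat.pow_le_pow_left hP2 2
      _ = 1024 := by norm_num
  have hP1 : Nat.card ↥P₁ ≤ 128 := by omega
  have hP1ge : 128 ≤ Nat.card ↥P₁ := by
    by_contra hlt
    push_neg at hlt
    have h : Nat.card ↥P₁ ^ 2 ≤ 127 ^ 2 := Nat.pow_le_pow_left (by omega) 2
    have h' : (127 : ℕ) ^ 2 = 16129 := by norm_num
    omega
  have hP1eq : Nat.card ↥P₁ = 2 ^ 7 := by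
    have h' : (2 : ℕ) ^ 7 = 128 := by norm_num
    omega
  have hP2ge : 32 ≤ Nat.card ↥P₂ := by
    by_contra hlt
    push_neg at hlt
    have h : Nat.card ↥P₂ ^ 2 ≤ 31 ^ 2 := Nat.pow_le_pow_left (by omega) 2
    have h' : (31 : ℕ) ^ 2 = 961 := by norm_num
    omega
  have hP2eq : Nat.card ↥P₂ = 2 ^ 5 := by
    have h' : (2 : ℕ) ^ 5 = 32 := by norm_num
    omega
  -- the subgroup `K`
  obtain ⟨K, hKW, hZ3K, hKcard, hKsq⟩ :=
    hCenK W X₁ _ _ _ c x t₀ P₁ P₂ P₃ y ser ch zf hxx hcx hP1eq hP2eq hy3 hyZ hycen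
  have hZ23ne : Subgroup.upperCentralSeries T 2 ≠ Subgroup.upperCentralSeries T 3 := by
    intro h
    have h2 := fA.c2
    rw [h, fA.c3] at h2
    omega
  obtain ⟨U, hUK, hnot, hcard⟩ :=
    hCompl K (Subgroup.upperCentralSeries T 2) (Subgroup.upperCentralSeries T 3) zf.Z23 hZ3K
      hZ23ne hKsq (fun k _ h hh => zf.Z2n.conj_mem h hh k)
  have hUW : U ≤ W := hUK.trans hKW
  have hcU : Nat.card ↥(U.subgroupOf W) = Nat.card ↥U :=
    Nat.card_congr (Subgroup.subgroupOfEquivOfLe hUW).toEquiv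
  have hidx := Subgroup.card_mul_index (U.subgroupOf W)
  rw [hcU, fA.cardW] at hidx
  have hK256 : 256 ≤ Nat.card ↥K := le_trans (by norm_num) hKcard
  have hU128 : 128 ≤ Nat.card ↥U := by omega
  have hi16 : (U.subgroupOf W).index ≤ 16 := by
    by_contra hlt
    push_neg at hlt
    have h : 128 * 17 ≤ Nat.card ↥U * (U.subgroupOf W).index := Nat.mul_le_mul hU128 hlt
    rw [hidx] at h
    norm_num at h
  have hfr := hd _ hi16
  apply hnot
  rw [← fA.frat]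
  intro z hz
  obtain ⟨f, hf, rfl⟩ := Subgroup.mem_map.mp hz
  exact Subgroup.mem_subgroupOf.mp (hfr hf)

end Cfsg.Agent.Lib.Helper85.RUW
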