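import Cfsg.Agent.Lib.Helper49.RUW.Defs
import Cfsg.Agent.Lib.Helper1.BurnsideBasis

set_option autoImplicit false

/-!
# [STAGEB] for project RUW (S3174, S3175)

From `FactsA W` and "`Φ(W)` lies in every subgroup of index `≤ 16`": `W' = Φ(W) = Z₃` is of
exponent 2, `|W/W'| = 2^8`, `W/W'` of exponent 2.
-/

namespace Cfsg.Agent.Lib.Helper85.RUW

open Cfsg.Agent.Lib.Helper49.RUW

open scoped commutatorElement

universe u

/-- [STAGEB] -/
theorem pkgStageB (hElem : PkgElem.{u}) : PkgStageB.{u} := by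
  intro T _ _ hT W hW fA hd
  have hWp : IsPGroup 2 ↥W := hT.to_subgroup W
  have hWle : W ≤ Subgroup.centralizer ((Subgroup.upperCentralSeries T 3 : Subgroup T) : Set T) :=
    le_of_eq hW
  have h1 : frattini ↥W ≤ commutator ↥W := hElem hWp hd
  have h2 : commutator ↥W ≤ frattini ↥W :=
    Cfsg.Agent.Lib.Helper1.commutator_le_frattini_of_pGroup 2 hWp
  have hCF : commutator ↥W = frattini ↥W := le_antisymm h2 h1
  have hcomm : (commutator ↥W).map W.subtype = Subgroup.upperCentralSeries T 3 := by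
    rw [hCF]; exact fA.frat
  -- the derived group is central in `W`
  have hcen : ∀ c ∈ commutator ↥W, ∀ w : ↥W, w * c = c * w := by
    intro c hc w
    have hc3 : (c : T) ∈ Subgroup.upperCentralSeries T 3 := by
      rw [← hcomm]; exact Subgroup.mem_map_of_mem W.subtype hc
    apply Subtype.ext
    exact ((Subgroup.mem_centralizer_iff.mp (hWle w.2)) (c : T) hc3).symm
  -- and of exponent 2
  have hsq : ∀ c ∈ commutator ↥W, c * c = 1 := by
    intro c hc
    have hc' := hc
    rw [commutator_eq_closure] at hc'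
    refine Subgroup.closure_induction (p := fun x _ => x * x = 1) ?_ ?_ ?_ ?_ hc'
    · rintro x ⟨a, b, rfl⟩
      have hc0 : ⁅a, b⁆ ∈ commutator ↥W :=
        Subgroup.commutator_mem_commutator (Subgroup.mem_top _) (Subgroup.mem_top _)
      have haa : a * a ∈ commutator ↥W := by
        rw [hCF, ← pow_two]
        exact Cfsg.Agent.Lib.Helper1.pow_mem_frattini_of_pGroup 2 hWp a
      have e1 := hcen _ hc0 a
      have e2 := hcen _ haa b
      have e3 : ⁅a, b⁆ * ⁅a, b⁆ = (a * a) * b * (a * a)⁻¹ * b⁻¹ := by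
        calc ⁅a, b⁆ * ⁅a, b⁆ = (⁅a, b⁆ * a) * b * a⁻¹ * b⁻¹ := by
              rw [commutatorElement_def]; group
          _ = (a * ⁅a, b⁆) * b * a⁻¹ * b⁻¹ := by rw [e1]
          _ = (a * a) * b * (a * a)⁻¹ * b⁻¹ := by
              rw [commutatorElement_def]; group
      rw [e3, ← e2]
      group
    · exact one_mul 1
    · intro x y hx hy hx2 hy2
      have hy' : y ∈ commutator ↥W := by rw [commutator_eq_closure]; exact hy
      have hxy := hcen y hy' x
      calc (x * y) * (x * y) = x * (y * x) * y := by group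
        _ = x * (x * y) * y := by rw [← hxy]
        _ = (x * x) * (y * y) := by group
        _ = 1 := by rw [hx2, hy2, one_mul]
    · intro x _ hx2
      rw [← mul_inv_rev, hx2, inv_one]
  have hexp : ∀ z ∈ Subgroup.upperCentralSeries T 3, z ^ 2 = 1 := by
    intro z hz
    rw [← hcomm] at hz
    obtain ⟨c, hc, rfl⟩ := Subgroup.mem_map.mp hz
    have h := hsq c hc
    rw [pow_two]
    have h' : (c : T) * (c : T) = 1 := congrArg Subtype.val h
    exact h'
  have hcard : Nat.card (↥W ⧸ commutator ↥W) = 2 ^ 8 := by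
    have h3 : Nat.card ↥(commutator ↥W) = 8 := by
      rw [← Subgroup.card_subtype W (commutator ↥W), hcomm]; exact fA.c3
    have h4 := Subgroup.card_eq_card_quotient_mul_card_subgroup (commutator ↥W)
    rw [fA.cardW, h3] at h4
    have h5 : (2 : ℕ) ^ 11 = 2 ^ 8 * 8 := by norm_num
    rw [h5] at h4
    exact (Nat.eq_of_mul_eq_mul_right (by norm_num) h4).symm
  have hexpQ : ∀ x : ↥W ⧸ commutator ↥W, x ^ 2 = 1 := by
    intro x
    obtain ⟨w, rfl⟩ := QuotientGroup.mk_surjective x
    rw [← QuotientGroup.mk_pow, QuotientGroup.eq_one_iff, hCF]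
    exact Cfsg.Agent.Lib.Helper1.pow_mem_frattini_of_pGroup 2 hWp w
  exact ⟨hcomm, hexp, hcard, hexpQ⟩

end Cfsg.Agent.Lib.Helper85.RUW
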