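import Cfsg.Agent.Lib.Helper49.RUW.Defs

set_option autoImplicit false

/-!
# [ZFACTS] for project RUW (S3174, S3175)

`FactsA W`, `FactsB W`, `W = C_T(Z₃)` give `ZFacts W (C_T(Z₂)) Z₂ Z₃`.
-/

namespace Cfsg.Agent.Lib.Helper85.RUW

open Cfsg.Agent.Lib.Helper49.RUW

open scoped commutatorElement

universe u

/-- [ZFACTS] -/
theorem pkgZFacts : PkgZFacts.{u} := by
  intro T _ _ _hT W hW fA fB
  have hZ3W : Subgroup.upperCentralSeries T 3 ≤ W := by
    rw [← fA.frat]
    exact Subgroup.map_subtype_le _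
  refine
    { Z3n := inferInstance
      Z2n := inferInstance
      Z23 := Subgroup.upperCentralSeries_mono T (by norm_num)
      Z3W := hZ3W
      card3 := fA.c3
      card2 := fA.c2
      exp := ?_
      cenW := ?_
      cenA := ?_
      notW := ?_
      act := ?_
      sqW := ?_
      commW := ?_
      cardW := fA.cardW }
  · intro z hz
    rw [← pow_two]
    exact fB.exp z hz
  · intro w hw z hz
    rw [hW, Subgroup.mem_centralizer_iff] at hw
    exact (hw z hz).symm
  · intro a ha z hz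
    rw [Subgroup.mem_centralizer_iff] at ha
    exact (ha z hz).symm
  · intro t ht
    by_contra hcon
    push_neg at hcon
    apply ht
    rw [hW, Subgroup.mem_centralizer_iff]
    intro z hz
    exact (hcon z hz).symm
  · intro t z hz
    have hz' : z⁻¹ ∈ Subgroup.upperCentralSeries T (2 + 1) := inv_mem hz
    rw [Subgroup.mem_upperCentralSeries_succ_iff] at hz'
    have h := hz' t
    rw [commutatorElement_def, inv_inv] at h
    unfold cg
    rw [← mul_assoc, ← mul_assoc]
    exact h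
  · intro p hp
    have h1 : ((⟨p, hp⟩ : ↥W) : ↥W ⧸ commutator ↥W) ^ 2 = 1 := fB.expQ _
    rw [← QuotientGroup.mk_pow, QuotientGroup.eq_one_iff] at h1
    have h2 : W.subtype ((⟨p, hp⟩ : ↥W) ^ 2) ∈ (commutator ↥W).map W.subtype :=
      Subgroup.mem_map_of_mem _ h1
    rw [fB.comm] at h2
    rw [← pow_two]
    exact h2
  · intro p hp q hq
    have h1 : ⁅(⟨p, hp⟩ : ↥W), (⟨q, hq⟩ : ↥W)⁆ ∈ commutator ↥W :=
      Subgroup.commutator_mem_commutator (Subgroup.mem_top _) (Subgroup.mem_top _)
    have h2 : W.subtype ⁅(⟨p, hp⟩ : ↥W), (⟨q, hq⟩ : ↥W)⁆ ∈ (commutator ↥W).map W.subtype :=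
      Subgroup.mem_map_of_mem _ h1
    rw [fB.comm] at h2
    exact h2

end Cfsg.Agent.Lib.Helper85.RUW
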